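import Groth.Agent.Ega43.OpenUniv
import Groth.Agent.Ega43.ChevalleyCrit
import Groth.Agent.CycA.ClosurePt
import Groth.Agent.Ega1.LocNoethNhd
import Groth.Agent.Flat2G.EtUnibranch

/-!
# Chevalley's criterion along one irreducible component of the source

Over a locally Noetherian base with geometrically unibranch local rings, a morphism locally of
finite type is universally open at `x` as soon as there is a generization `ξ ⤳ x` which maps to a
maximal point of the base and such that the residual transcendence degree at `ξ` bounds the ones at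
the points between `ξ` and `x` in the fibre of `x`.
-/

set_option autoImplicit false
open CategoryTheory AlgebraicGeometry Limits TopologicalSpace
universe u

namespace Groth.Agent.Old.H22.ComponentOpen

open EGA43 Groth.Agent.CycB.RelDim Groth.Agent.CycB Groth.Agent.Ega43

/-- Universal openness at `x`, tested along the closure of one generization `ξ` of `x`. -/
theorem isUnivOpenAt_of_generization {X Y : Scheme.{u}} [IsLocallyNoetherian Y]
    (hY : ∀ y : Y, CAlg2.IsGeomUnibranch (Y.presheaf.stalk y)) (f : X ⟶ Y) [LocallyOfFiniteType f]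
    (ξ z : X) (hξz : ξ ⤳ z) (hη : ∀ y : Y, y ⤳ f ξ → y = f ξ) (d : ℕ)
    (hrtd : (d : Cardinal.{u}) ≤ rtd f ξ)
    (hd : ∀ w : X, w ⤳ z → f w = f z → ξ ⤳ w → rtd f w ≤ d) :
    IsUnivOpenAt f z := by
  -- an irreducible neighbourhood of `f z`
  have hnil : (nilradical (Y.presheaf.stalk (f z))).IsPrime :=
    (Ideal.Quotient.isDomain_iff_prime _).mp (hY (f z)).1.1
  obtain ⟨V, hzV, -, hV⟩ := Ega1.LocNoethNhd.exists_irreducible_nhd (f z) hnil
  -- the closure of `ξ`
  obtain ⟨Z, i, hi, hZ, hiξ, hir⟩ := CycA.ClosurePt.exists_closure_subscheme ξ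
  obtain ⟨z₀, hz₀⟩ : z ∈ Set.range i := by
    rw [hir]
    exact specializes_iff_mem_closure.mp hξz
  let g : Z ⟶ Y := i ≫ f
  have hg : ∀ w : Z, g w = f (i w) := fun w => Scheme.Hom.comp_apply _ _ _
  have hz₀V : z₀ ∈ g ⁻¹ᵁ V := by
    change g z₀ ∈ V
    rw [hg, hz₀]
    exact hzV
  have hVi : IrreducibleSpace V := Subtype.irreducibleSpace hV
  let W : Z.Opens := g ⁻¹ᵁ V
  let z₁ : (W : Scheme.{u}) := ⟨z₀, hz₀V⟩
  have hWne : Nonempty W := ⟨z₁⟩
  have hWi : IrreducibleSpace W := by
    infer_instance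
  let g' : (W : Scheme.{u}) ⟶ V := g ∣_ V
  have hg' : g' ≫ V.ι = W.ι ≫ i ≫ f := by
    rw [morphismRestrict_ι]
  have hcomm : ∀ w : (W : Scheme.{u}), V.ι (g' w) = f (i (W.ι w)) := by
    intro w
    rw [← Scheme.Hom.comp_apply, hg', Scheme.Hom.comp_apply, Scheme.Hom.comp_apply]
  have hrtd' : ∀ w : (W : Scheme.{u}), rtd g' w = rtd f (i (W.ι w)) := by
    intro w
    have h1 := rtd_comp g' V.ι w
    have h2 := rtd_comp W.ι (i ≫ f) w
    have h3 := rtd_comp i f (W.ι w)
    rw [hg', h2, h3, rtd_eq_zero_of_isPreimmersion V.ι, rtd_eq_zero_of_isPreimmersion W.ι,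
      rtd_eq_zero_of_isPreimmersion i, zero_add, add_zero, add_zero] at h1
    exact h1.symm
  have hgen : ∀ w : (W : Scheme.{u}), genericPoint Z ⤳ W.ι w := fun w => genericPoint_specializes _
  let ξ₁ : (W : Scheme.{u}) := ⟨genericPoint Z, (genericPoint_specializes z₀).mem_open W.2 hz₀V⟩
  have hξ₁ : W.ι ξ₁ = genericPoint Z := rfl
  have hξW : genericPoint (W : Scheme.{u}) = ξ₁ := by
    apply W.ι.isOpenEmbedding.injective
    rw [hξ₁]
    have h1 : W.ι (genericPoint (W : Scheme.{u})) ⤳ W.ι ξ₁ :=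
      (genericPoint_specializes ξ₁).map W.ι.continuous
    have h2 : genericPoint Z ⤳ W.ι (genericPoint (W : Scheme.{u})) := genericPoint_specializes _
    exact (h1.antisymm h2).eq
  -- `f ξ` is the generic point of `V`
  have hηV : V.ι (genericPoint (V : Scheme.{u})) = f ξ := by
    have h1 : V.ι (genericPoint (V : Scheme.{u})) ⤳ V.ι (g' ξ₁) :=
      (genericPoint_specializes _).map V.ι.continuous
    rw [hcomm, hξ₁, hiξ] at h1
    exact hη _ h1
  have hdom : IsDominant g' := by
    have h1 : g' ξ₁ = genericPoint (V : Scheme.{u}) := by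
      apply V.ι.isOpenEmbedding.injective
      rw [hcomm, hξ₁, hiξ, hηV]
    constructor
    rw [denseRange_iff_closure_range, Set.eq_univ_iff_forall]
    intro v
    have h2 : g' ξ₁ ⤳ v := by rw [h1]; exact genericPoint_specializes v
    have h3 : ({g' ξ₁} : Set (V : Scheme.{u})) ⊆ Set.range g' :=
      Set.singleton_subset_iff.mpr (Set.mem_range_self ξ₁)
    exact closure_mono h3 (specializes_iff_mem_closure.mp h2)
  have hYV : ∀ v : (V : Scheme.{u}), CAlg2.IsGeomUnibranch ((V : Scheme.{u}).presheaf.stalk v) := by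
    intro v
    have e := (asIso (V.ι.stalkMap v)).commRingCatIsoToRingEquiv
    exact Flat2G.EtUnibranch.isGeomUnibranch_of_ringEquiv e (hY _)
  have hz₁ : i (W.ι z₁) = z := hz₀
  have hle : FlatMor.fibreDimAt g' z₁ ≤ d := by
    apply VarietyA.LocDim.fibreDimAt_le
    intro w hw hgw
    rw [hrtd']
    apply hd
    · have := (hw.map W.ι.continuous).map i.continuous
      rwa [hz₁] at this
    · rw [← hcomm, hgw, hcomm, hz₁]
    · have := (hgen w).map i.continuous
      rwa [hiξ] at this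
  have hge : (d : WithBot ℕ∞) ≤ FlatMor.fibreDimAt g' (genericPoint (W : Scheme.{u})) := by
    obtain ⟨n, hn, hn'⟩ := VarietyA.LocDim.le_fibreDimAt g' ξ₁ ξ₁ specializes_rfl rfl
    rw [hξW]
    refine le_trans ?_ hn'
    rw [hrtd', hξ₁, hiξ] at hn
    rw [hn] at hrtd
    exact_mod_cast hrtd
  obtain ⟨U, hz₁U, hU⟩ := ChevalleyCrit.exists_universallyOpen_nhd hYV g' z₁ d hle hge
  have h1 : UniversallyOpen ((U.ι ≫ g') ≫ V.ι) := inferInstance
  rw [Category.assoc, hg', ← Category.assoc, ← Category.assoc] at h1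
  have h2 := (UnivOpenAt.universallyOpen_iff_forall_isUnivOpenAt _).mp h1 ⟨z₁, hz₁U⟩
  have h3 := UnivOpenAt.isUnivOpenAt_of_comp _ _ _ h2
  have h4 : ((U.ι ≫ W.ι) ≫ i) ⟨z₁, hz₁U⟩ = z := hz₁
  rwa [h4] at h3

end Groth.Agent.Old.H22.ComponentOpen
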