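import Groth.Agent.Old.H22.ComponentOpen
import Groth.Agent.Flat2C.LqfDense
import Mathlib.AlgebraicGeometry.Morphisms.QuasiFinite

/-!
# Maximal points and residual transcendence degree of locally quasi-finite morphisms
-/

set_option autoImplicit false
open CategoryTheory AlgebraicGeometry Limits TopologicalSpace
universe u

namespace Groth.Agent.Old.H22.MaxPoint

open EGA43 Groth.Agent.CycB.RelDim Groth.Agent.CycB Groth.Agent.Ega43

/-- The generic point of an irreducible component has no proper generization. -/
theorem eq_of_specializes_of_isGenericPoint {T : Type*} [TopologicalSpace T] [T0Space T]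
    {W : Set T} (hW : W ∈ irreducibleComponents T) {η y : T} (hη : IsGenericPoint η W)
    (hy : y ⤳ η) : y = η := by
  have h1 : W ⊆ closure {y} := by
    rw [← hη.def]
    exact closure_minimal (Set.singleton_subset_iff.mpr (specializes_iff_mem_closure.mp hy))
      isClosed_closure
  have h2 : closure {y} ⊆ W := hW.2 isIrreducible_singleton.closure h1
  have h3 : η ⤳ y := hη.specializes (h2 (subset_closure rfl))
  exact (hy.antisymm h3).eq

/-- The residual transcendence degrees of a locally quasi-finite morphism vanish. -/
theorem rtd_le_zero {X Y : Scheme.{u}} (f : X ⟶ Y) [LocallyQuasiFinite f] [LocallyOfFiniteType f]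
    (x : X) : rtd f x ≤ 0 := by
  obtain ⟨n, hn, hn'⟩ := VarietyA.LocDim.le_fibreDimAt f x x specializes_rfl rfl
  have h0 := Flat2C.LqfDense.fibreDimAt_le_zero_of_quasiFiniteAt f x (f.quasiFiniteAt x)
  have h1 : (n : WithBot ℕ∞) ≤ 0 := hn'.trans h0
  have h2 : n ≤ 0 := by exact_mod_cast h1
  rw [hn]
  exact_mod_cast h2

end Groth.Agent.Old.H22.MaxPoint
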